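import Cfsg.Agent.H226.Tall.Defs
import Cfsg.Agent.H236.Rows

/-!
# S2927 [CLO]: classical groups of odd characteristic: `NotCP` (helper297)

No centralizer of an involution is of characteristic 2, except in `PSL₂(F)`, `PSL₃(3)`, `PSL₄(3)`, `PSp₄(3)`, `PSU₃(3)`,
`PSU₄(3)`, `Ω₇(3)`, `PΩ₈^±(3)`.

* `notCP_psl`, `notCP_psp`, `notCP_psu`, `notCP_pomega`, `notCP_oodd`, `notCP_oplus`, `notCP_ominus`: for an explicit
  group;
* `psl_cases`, ..., `ominus_cases`: `NotCP K ∨ (K is in the list)`.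
-/

set_option autoImplicit false
set_option linter.unusedSectionVars false
set_option linter.dupNamespace false

namespace Cfsg.Agent.H297.Tall

open Subgroup Cfsg Cfsg.Agent.BpLin Cfsg.Agent.BpCl Cfsg.Agent.H236 Cfsg.Agent.H226.Tall
open Cfsg.Agent.H239.CharPLocal (CP)
open Cfsg.Agent.ClassicalGeometry.OrthSemiForms Cfsg.Agent.LieClassical.QuadForms Cfsg.Agent.LieClassical.OrthTrans

universe u v

variable {K : Type u} [Group K] [Finite K] {r : ℕ} [hr : Fact r.Prime]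

theorem ws_of_cp [IsSimpleGroup K] (hr2 : r ≠ 2) (hK : IsLieTypeChar r K) {z : K} (hz : z ^ 2 = 1)
    (h : CP 2 ↥(centralizer ({z} : Set K))) : WS r ↥(centralizer ({z} : Set K)) := by
  have : Fact (Nat.Prime 2) := ⟨Nat.prime_two⟩
  exact (rs_centralizer (p := 2) hr2.symm (H996.AllSplit.hasSplit_of_lie hr.out hK) z hz h).ws

theorem pow_two_of {z : K} (hz : TwoC z) : z ^ 2 = 1 := by
  rw [← hz.1, pow_orderOf_eq_one]

theorem equiv_pow_two {K' : Type v} [Group K'] (e : K ≃* K') {z : K} (hz : TwoC z) : e z ^ 2 = 1 := by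
  rw [← map_pow, pow_two_of hz, map_one]

theorem two_ne_zero' {F : Type} [Field F] [CharP F r] (hr2 : r ≠ 2) : (2 : F) ≠ 0 := by
  have h1 := cast_ne_zero' (F := F) Nat.prime_two hr2
  exact_mod_cast h1

theorem card_le_three {F : Type} [Field F] [Fintype F] (h2 : (2 : F) ≠ 0) (h : Nat.card F ≤ 3) :
    Fintype.card F = 3 := by
  rw [Nat.card_eq_fintype_card] at h
  have h6 := odd_card h2
  have h7 := Fintype.one_lt_card (α := F)
  rcases h6 with ⟨k, hk⟩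
  omega

/-! ### explicit groups -/

section

variable [IsSimpleGroup K] (hr2 : r ≠ 2) {F : Type} [Field F] [Fintype F] [CharP F r]

include hr2

/-- **`PSL_n(F)`** -/
theorem notCP_psl {n : ℕ} (hn : 3 ≤ n) (h3 : ¬ ((n = 3 ∨ n = 4) ∧ Fintype.card F = 3))
    (e : K ≃* Matrix.ProjectiveSpecialLinearGroup (Fin n) F) : NotCP K := by
  intro z hz h
  have hK : IsLieTypeChar r K := Or.inl ⟨F, inferInstance, inferInstance, inferInstance, n, by omega, by omega, ⟨e⟩⟩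
  have h2 : (2 : F) ≠ 0 := two_ne_zero' hr2
  rcases psl_two h2 (equiv_pow_two e hz) (ws_equiv e (ws_of_cp hr2 hK (pow_two_of hz) h)) with h4 | ⟨h4, h5⟩
  · omega
  · exact h3 ⟨by omega, card_le_three h2 h5⟩

/-- **`PSp_2m(F)`** -/
theorem notCP_psp {m : ℕ} (hm : 2 ≤ m) (h3 : ¬ (m = 2 ∧ Fintype.card F = 3)) (e : K ≃* PSp m F) : NotCP K := by
  intro z hz h
  have h2 : (2 : F) ≠ 0 := two_ne_zero' hr2
  have hc : 3 ≤ Fintype.card F := by
    rw [← Nat.card_eq_fintype_card]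
    exact card_ne_two r h2
  have hK : IsLieTypeChar r K :=
    Or.inr (Or.inl ⟨F, inferInstance, inferInstance, inferInstance, m, hm, fun _ => hc, ⟨e⟩⟩)
  obtain ⟨h4, h5⟩ := psp_two hm h2 (equiv_pow_two e hz) (ws_equiv e (ws_of_cp hr2 hK (pow_two_of hz) h))
  exact h3 ⟨h4, card_le_three h2 h5⟩

/-- **`PSU_n(q)`** -/
theorem notCP_psu {n q : ℕ} (hF : Fintype.card F = q ^ 2) (hn : 3 ≤ n) (h3 : ¬ ((n = 3 ∨ n = 4) ∧ q = 3))
    (e : K ≃* PSU n F q) : NotCP K := by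
  intro z hz h
  have h2 : (2 : F) ≠ 0 := two_ne_zero' hr2
  have h6 := odd_card h2
  have h7 := Fintype.one_lt_card (α := F)
  have hq2 : q ≠ 2 := by
    rintro rfl
    rw [hF] at h6
    exact absurd h6 (by decide)
  have hK : IsLieTypeChar r K := by
    refine Or.inr (Or.inr (Or.inl ⟨F, inferInstance, inferInstance, inferInstance, n, q, hF, hn, ?_, ⟨e⟩⟩))
    exact fun h0 => hq2 h0.2
  obtain ⟨h4, h5⟩ := psu_two hF hn h2 (equiv_pow_two e hz) (ws_equiv e (ws_of_cp hr2 hK (pow_two_of hz) h))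
  refine h3 ⟨by omega, ?_⟩
  rw [hF] at h6 h7
  interval_cases q
  · exact absurd h7 (by norm_num)
  · exact absurd h7 (by norm_num)
  · exact absurd rfl hq2
  · rfl

variable {ι : Type} [Fintype ι] [DecidableEq ι] {Q : QuadraticForm F (ι → F)}

theorem notCP_pomega (hG : Good Q) (hK : IsLieTypeChar r K) (h3 : ¬ (Fintype.card ι ≤ 8 ∧ Fintype.card F = 3))
    (e : K ≃* POmega F ⇑Q) : NotCP K := by
  intro z hz h
  have h2 : (2 : F) ≠ 0 := two_ne_zero' hr2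
  obtain ⟨h4, h5⟩ := omega_two hG h2 (equiv_pow_two (e.trans (pomegaEquiv hG)) hz)
    (ws_equiv (e.trans (pomegaEquiv hG)) (ws_of_cp hr2 hK (pow_two_of hz) h))
  rw [Module.finrank_fintype_fun_eq_card] at h4
  exact h3 ⟨h4, card_le_three h2 h5⟩

/-- **`Ω_{2m+1}(F)`** -/
theorem notCP_oodd {m : ℕ} (hm : 3 ≤ m) (h3 : ¬ (m = 3 ∧ Fintype.card F = 3))
    (e : K ≃* POmega F (quadFormOdd m F)) : NotCP K := by
  have h2 : (2 : F) ≠ 0 := two_ne_zero' hr2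
  have hG : Good (oddForm m F) := AutOrth.Main.good_odd (by omega) h2
  have hK : IsLieTypeChar r K :=
    Or.inr (Or.inr (Or.inr (Or.inl ⟨F, inferInstance, inferInstance, inferInstance, m, hm, odd_card h2, ⟨e⟩⟩)))
  have e' : K ≃* POmega F ⇑(oddForm m F) := by
    rw [coe_oddForm]
    exact e
  refine notCP_pomega hr2 hG hK ?_ e'
  rintro ⟨h4, h5⟩
  simp only [Fintype.card_sum, Fintype.card_unit, Fintype.card_fin] at h4
  exact h3 ⟨by omega, h5⟩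

/-- **`PΩ⁺_{2m}(F)`** -/
theorem notCP_oplus {m : ℕ} (hm : 4 ≤ m) (h3 : ¬ (m = 4 ∧ Fintype.card F = 3))
    (e : K ≃* POmega F (quadFormPlus m F)) : NotCP K := by
  have hG : Good (plusForm m F) := AutOrth.Main.good_plus (by omega)
  have hK : IsLieTypeChar r K :=
    Or.inr (Or.inr (Or.inr (Or.inr (Or.inl ⟨F, inferInstance, inferInstance, inferInstance, m, hm, ⟨e⟩⟩))))
  have e' : K ≃* POmega F ⇑(plusForm m F) := by
    rw [coe_plusForm]
    exact e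
  refine notCP_pomega hr2 hG hK ?_ e'
  rintro ⟨h4, h5⟩
  simp only [Fintype.card_sum, Fintype.card_fin] at h4
  exact h3 ⟨by omega, h5⟩

/-- **`PΩ⁻_{2m}(F)`** -/
theorem notCP_ominus {m : ℕ} {a b : F} (hm : 4 ≤ m)
    (hab : ∀ z₁ z₂ : F, z₁ ^ 2 + a * z₁ * z₂ + b * z₂ ^ 2 = 0 → z₁ = 0 ∧ z₂ = 0)
    (h3 : ¬ (m = 4 ∧ Fintype.card F = 3)) (e : K ≃* POmega F (quadFormMinus (m - 1) F a b)) : NotCP K := by
  have hG : Good (minusForm (m - 1) F a b) := AutOrth.Main.good_minus (by omega) hab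
  have hK : IsLieTypeChar r K :=
    Or.inr (Or.inr (Or.inr (Or.inr (Or.inr (Or.inl
      ⟨F, inferInstance, inferInstance, inferInstance, m, a, b, hm, hab, ⟨e⟩⟩)))))
  have e' : K ≃* POmega F ⇑(minusForm (m - 1) F a b) := by
    rw [coe_minusForm]
    exact e
  refine notCP_pomega hr2 hG hK ?_ e'
  rintro ⟨h4, h5⟩
  simp only [Fintype.card_sum, Fintype.card_fin] at h4
  exact h3 ⟨by omega, h5⟩

end

/-! ### the list of the exceptions -/

section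

variable [IsSimpleGroup K] (hr2 : r ≠ 2)

include hr2

theorem psl_cases (hK : IsPSLChar r K) : NotCP K ∨
    ∃ (F : Type) (_ : Field F) (_ : Fintype F) (_ : CharP F r) (n : ℕ),
      ((n = 2 ∧ 4 ≤ Fintype.card F) ∨ ((n = 3 ∨ n = 4) ∧ Fintype.card F = 3)) ∧
        Nonempty (K ≃* Matrix.ProjectiveSpecialLinearGroup (Fin n) F) := by
  obtain ⟨F, i1, i2, i3, n, hn, hn2, ⟨e⟩⟩ := hK
  by_cases h3 : (n = 3 ∨ n = 4) ∧ Fintype.card F = 3
  · exact Or.inr ⟨F, i1, i2, i3, n, Or.inr h3, ⟨e⟩⟩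
  · rcases eq_or_ne n 2 with h4 | h4
    · exact Or.inr ⟨F, i1, i2, i3, n, Or.inl ⟨h4, hn2 h4⟩, ⟨e⟩⟩
    · exact Or.inl (notCP_psl hr2 (by omega) h3 e)

theorem psp_cases (hK : IsPSpChar r K) : NotCP K ∨
    ∃ (F : Type) (_ : Field F) (_ : Fintype F) (_ : CharP F r), Fintype.card F = 3 ∧ Nonempty (K ≃* PSp 2 F) := by
  obtain ⟨F, i1, i2, i3, m, hm, hm2, ⟨e⟩⟩ := hK
  by_cases h3 : m = 2 ∧ Fintype.card F = 3
  · obtain ⟨rfl, h3⟩ := h3
    exact Or.inr ⟨F, i1, i2, i3, h3, ⟨e⟩⟩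
  · exact Or.inl (notCP_psp hr2 hm h3 e)

theorem psu_cases (hK : IsPSUChar r K) : NotCP K ∨
    ∃ (F : Type) (_ : Field F) (_ : Fintype F) (_ : CharP F r) (n : ℕ),
      (n = 3 ∨ n = 4) ∧ Fintype.card F = 3 ^ 2 ∧ Nonempty (K ≃* PSU n F 3) := by
  obtain ⟨F, i1, i2, i3, n, q, hF, hn, hn2, ⟨e⟩⟩ := hK
  by_cases h3 : (n = 3 ∨ n = 4) ∧ q = 3
  · obtain ⟨h3, rfl⟩ := h3
    exact Or.inr ⟨F, i1, i2, i3, n, h3, hF, ⟨e⟩⟩
  · exact Or.inl (notCP_psu hr2 hF hn h3 e)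

theorem oodd_cases (hK : IsPOmegaOddChar r K) : NotCP K ∨
    ∃ (F : Type) (_ : Field F) (_ : Fintype F) (_ : CharP F r),
      Fintype.card F = 3 ∧ Nonempty (K ≃* POmega F (quadFormOdd 3 F)) := by
  obtain ⟨F, i1, i2, i3, m, hm, hodd, ⟨e⟩⟩ := hK
  by_cases h3 : m = 3 ∧ Fintype.card F = 3
  · obtain ⟨rfl, h3⟩ := h3
    exact Or.inr ⟨F, i1, i2, i3, h3, ⟨e⟩⟩
  · exact Or.inl (notCP_oodd hr2 hm h3 e)

theorem oplus_cases (hK : IsPOmegaPlusChar r K) : NotCP K ∨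
    ∃ (F : Type) (_ : Field F) (_ : Fintype F) (_ : CharP F r),
      Fintype.card F = 3 ∧ Nonempty (K ≃* POmega F (quadFormPlus 4 F)) := by
  obtain ⟨F, i1, i2, i3, m, hm, ⟨e⟩⟩ := hK
  by_cases h3 : m = 4 ∧ Fintype.card F = 3
  · obtain ⟨rfl, h3⟩ := h3
    exact Or.inr ⟨F, i1, i2, i3, h3, ⟨e⟩⟩
  · exact Or.inl (notCP_oplus hr2 hm h3 e)

theorem ominus_cases (hK : IsPOmegaMinusChar r K) : NotCP K ∨
    ∃ (F : Type) (_ : Field F) (_ : Fintype F) (_ : CharP F r) (a b : F),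
      Fintype.card F = 3 ∧ (∀ z₁ z₂ : F, z₁ ^ 2 + a * z₁ * z₂ + b * z₂ ^ 2 = 0 → z₁ = 0 ∧ z₂ = 0) ∧
        Nonempty (K ≃* POmega F (quadFormMinus 3 F a b)) := by
  obtain ⟨F, i1, i2, i3, m, a, b, hm, hab, ⟨e⟩⟩ := hK
  by_cases h3 : m = 4 ∧ Fintype.card F = 3
  · obtain ⟨rfl, h3⟩ := h3
    exact Or.inr ⟨F, i1, i2, i3, a, b, h3, hab, ⟨e⟩⟩
  · exact Or.inl (notCP_ominus hr2 hm hab h3 e)

end

end Cfsg.Agent.H297.Tall
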